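import Cfsg.Agent.J2Type.ThreeSylow
import Cfsg.Agent.J2Uniq.Facts

/-!
Five involutions in a group of Hall-Janko type satisfying the two-letter relations of the
presentation: `z`, a third generator `b` of the alternating factor of `C(t)`, `u`, an involution `d`
centralizing `z` and `b`, and `t`.
-/

set_option autoImplicit false

namespace CfsgLib.J2Uniq

open CfsgLib.J2Type

variable {G : Type*} [Group G] [Finite G]

/-- The relations of the five involutions. -/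
structure GensData (z u t : G) (X0 : Subgroup G) (b d : G) : Prop where
  b_mem : b ∈ X0
  b_sq : b * b = 1
  bc : (b * u) ^ 3 = 1 ∧ b * u ≠ 1
  ab : (z * b) ^ 5 = 1 ∧ z * b ≠ 1
  gen : ∀ L : Subgroup G, z ∈ L → u ∈ L → b ∈ L → X0 ≤ L
  d_sq : d * d = 1
  d_z : d * z = z * d
  d_b : d * b = b * d
  dt : (d * t) ^ 3 = 1
  ud : (u * d) ^ 4 = z

namespace CTData

variable {z u t r g : G} {Q E X0 F : Subgroup G} {img : G → A5}
variable (D : Data z u t r Q E img) (T : CTData z u t E X0 F g)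
include D T

theorem exists_b : ∃ b ∈ X0, b * b = 1 ∧ ((b * u) ^ 3 = 1 ∧ b * u ≠ 1) ∧
    ((z * b) ^ 5 = 1 ∧ z * b ≠ 1) ∧ ∀ L : Subgroup G, z ∈ L → u ∈ L → b ∈ L → X0 ≤ L := by
  obtain ⟨e⟩ := T.iso
  set a' := e ⟨z, T.z_X0⟩ with ha'
  set c' := e ⟨u, T.u_X0⟩ with hc'
  have back : ∀ {x y : G} (hx : x ∈ X0) (hy : y ∈ X0), e ⟨x, hx⟩ = e ⟨y, hy⟩ → x = y :=
    fun hx hy h => congrArg Subtype.val (e.injective h)
  have ha : a' * a' = 1 := by
    rw [ha', ← map_mul, show (⟨z, T.z_X0⟩ * ⟨z, T.z_X0⟩ : ↥X0) = 1 from Subtype.ext D.setup.z_sq,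
      map_one]
  have ha1 : a' ≠ 1 := fun h => D.setup.z_ne (back T.z_X0 X0.one_mem (h.trans (map_one e).symm))
  have hc : c' * c' = 1 ∧ c' ≠ 1 ∧ a' * c' = c' * a' ∧ a' ≠ c' := by
    refine ⟨?_, fun h => D.u_mem.2.2.1 (back T.u_X0 X0.one_mem (h.trans (map_one e).symm)), ?_,
      fun h => D.u_mem.2.2.2 (back T.z_X0 T.u_X0 h).symm⟩
    · rw [hc', ← map_mul, show (⟨u, T.u_X0⟩ * ⟨u, T.u_X0⟩ : ↥X0) = 1 from Subtype.ext D.u_mem.2.1,
        map_one]
    · rw [ha', hc', ← map_mul, ← map_mul]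
      exact congrArg e (Subtype.ext (D.setup.comm_Q D.u_mem.1).symm)
  obtain ⟨b', hbb, hbc, hab⟩ := A5Facts.exists_third a' ha ha1 c' hc
  refine ⟨(e.symm b' : G), (e.symm b').2, ?_, ?_, ?_, ?_⟩
  · have := congrArg (fun x => ((e.symm x : ↥X0) : G)) hbb
    simpa using this
  · refine ⟨?_, fun h => hbc.2 ?_⟩
    · have := congrArg (fun x => ((e.symm x : ↥X0) : G)) hbc.1
      simpa [hc'] using this
    · have h' : e.symm b' * ⟨u, T.u_X0⟩ = 1 := Subtype.ext h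
      simpa [hc'] using congrArg e h'
  · refine ⟨?_, fun h => hab.2 ?_⟩
    · have := congrArg (fun x => ((e.symm x : ↥X0) : G)) hab.1
      simpa [ha'] using this
    · have h' : ⟨z, T.z_X0⟩ * e.symm b' = 1 := Subtype.ext h
      simpa [ha'] using congrArg e h'
  · intro L hz hu hb x hx
    have hmem : ∀ y : ↥X0, (y : G) ∈ L → e y ∈ (L.subgroupOf X0).map e.toMonoidHom :=
      fun y hy => ⟨y, hy, rfl⟩
    have htop := A5Facts.eq_top_of_mem ha ha1 ⟨hbc, hab⟩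
      ((L.subgroupOf X0).map e.toMonoidHom) (hmem ⟨z, T.z_X0⟩ hz) (hmem ⟨u, T.u_X0⟩ hu)
      (by simpa using hmem (e.symm b') hb)
    obtain ⟨y, hy, hye⟩ : e ⟨x, hx⟩ ∈ (L.subgroupOf X0).map e.toMonoidHom :=
      htop ▸ Subgroup.mem_top _
    have hyx : (y : G) = x := congrArg Subtype.val (e.injective hye)
    exact hyx ▸ hy

theorem exists_d {b : G} (hb : b ∈ X0) (hbb : b * b = 1) (hab : (z * b) ^ 5 = 1 ∧ z * b ≠ 1) :
    ∃ d, d * d = 1 ∧ d * z = z * d ∧ d * b = b * d ∧ (d * t) ^ 3 = 1 ∧ d * t ≠ 1 := by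
  classical
  haveI : Fact (Nat.Prime 5) := ⟨by norm_num⟩
  set s := z * b with hsdef
  have hzz := D.setup.z_sq
  have hsX : s ∈ X0 := mul_mem T.z_X0 hb
  have hs5 : orderOf s = 5 := orderOf_eq_prime hab.1 hab.2
  have hzs : z * s * z⁻¹ = s⁻¹ := by
    refine eq_inv_of_mul_eq_one_left ?_
    rw [hsdef, inv_of_sq hzz]
    calc z * (z * b) * z * (z * b) = (z * z) * b * (z * z) * b := by group
      _ = 1 := by rw [hzz, one_mul, mul_one, hbb]
  have V := CTData.fiveOne D T hsX hs5 ⟨z, hzs⟩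
  set H := Subgroup.centralizer ({s} : Set G) with hH
  obtain ⟨φ, hφs, hφk⟩ := V.hom
  have hfix : ∀ y ∈ Subgroup.zpowers s, y * y = 1 → y = 1 := fun y hy hyy => by
    have h1 := Subgroup.orderOf_dvd_natCard _ hy
    rw [Nat.card_zpowers, hs5] at h1
    exact orderOf_eq_one_iff.1 (Nat.eq_one_of_dvd_coprimes (by norm_num : Nat.Coprime 5 2) h1
      (orderOf_dvd_of_pow_eq_one (by rw [sq, hyy])))
  have hzinv : ∀ y ∈ Subgroup.zpowers s, z * y * z⁻¹ = y⁻¹ := by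
    intro y hy
    obtain ⟨i, rfl⟩ := Subgroup.mem_zpowers_iff.1 hy
    rw [← conj_zpow, hzs, inv_zpow]
  -- the action of `z`
  have hzH : ∀ x : ↥H, z * (x : G) * z⁻¹ ∈ H := by
    intro x
    have hxs : Commute (x : G) s := mem_cent_iff.1 x.2
    refine mem_cent_iff.2 ?_
    have h2 : z * s⁻¹ * z⁻¹ = s := by
      rw [show z * s⁻¹ * z⁻¹ = (z * s * z⁻¹)⁻¹ by group, hzs, inv_inv]
    calc z * (x : G) * z⁻¹ * s = z * (x : G) * z⁻¹ * (z * s⁻¹ * z⁻¹) := by rw [h2]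
      _ = z * ((x : G) * s⁻¹) * z⁻¹ := by group
      _ = z * (s⁻¹ * x) * z⁻¹ := by rw [hxs.inv_right.eq]
      _ = (z * s⁻¹ * z⁻¹) * (z * x * z⁻¹) := by group
      _ = s * (z * x * z⁻¹) := by rw [h2]
  let θ : ↥H →* ↥H := MonoidHom.mk' (fun x => ⟨z * (x : G) * z⁻¹, hzH x⟩)
    fun x y => Subtype.ext (show z * ((x : G) * y) * z⁻¹ = z * (x : G) * z⁻¹ * (z * y * z⁻¹) by group)
  have hθθ : ∀ x, θ (θ x) = x := fun x => Subtype.ext (show z * (z * (x : G) * z⁻¹) * z⁻¹ = x by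
    rw [inv_of_sq hzz]; calc z * (z * (x : G) * z) * z = (z * z) * x * (z * z) := by group
                          _ = x := by rw [hzz, one_mul, mul_one])
  have hker : φ.ker ≤ (φ.comp θ).ker := fun x hx => by
    rw [MonoidHom.mem_ker, hφk] at hx
    rw [MonoidHom.mem_ker, MonoidHom.comp_apply, hφk]
    show z * (x : G) * z⁻¹ ∈ _
    rw [hzinv _ hx]; exact inv_mem hx
  let ψ : A5 →* A5 := φ.liftOfSurjective hφs ⟨φ.comp θ, hker⟩
  have hψ : ∀ x, ψ (φ x) = φ (θ x) := fun x => MonoidHom.liftOfRightInverse_comp_apply _ _ _ _ x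
  have hψψ : ∀ y, ψ (ψ y) = y := fun y => by
    obtain ⟨x, rfl⟩ := hφs y
    rw [hψ, hψ, hθθ]
  let ψe : A5 ≃* A5 := MulEquiv.ofBijective ψ
    ⟨Function.LeftInverse.injective hψψ, Function.RightInverse.surjective hψψ⟩
  -- it fixes a point stabilizer
  obtain ⟨n, N⟩ := CTData.exists_etaData D T
  have hnH : n ∈ H := mem_cent_iff.2 (N.comm_X0 s hsX)
  have htH : t ∈ H := mem_cent_iff.2 (T.comm t T.t_F s hsX)
  have hθn : θ ⟨n, hnH⟩ = ⟨n, hnH⟩ := Subtype.ext (conj_eq_self_iff.2 N.comm_z.symm)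
  have hθt : θ ⟨t, htH⟩ = ⟨t, htH⟩ := Subtype.ext (conj_eq_self_iff.2 D.t_z.symm)
  have hn1 : φ ⟨n, hnH⟩ ≠ 1 := fun e => by
    have hy : n ∈ Subgroup.zpowers s := (hφk _).1 e
    have h1 : n⁻¹ = n := (hzinv n hy).symm.trans (conj_eq_self_iff.2 N.comm_z.symm)
    have := hfix n hy (by nth_rw 1 [← h1]; exact inv_mul_cancel n)
    have ho := N.ord
    rw [this, orderOf_one] at ho
    norm_num at ho
  have ht1 : φ ⟨t, htH⟩ ≠ 1 := fun e => D.t_ne (hfix t ((hφk _).1 e) D.t_sq)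
  set ft : G := n * t * n⁻¹ with hft
  have hftF : ft ∈ F := N.map_F t T.t_F
  have hid : ∀ y, ψe y = y := by
    refine eq_self_of_fixed (MulEquiv.refl A5) ψe (r := φ ⟨n, hnH⟩) (w := φ ⟨t, htH⟩) ?_ hn1 ?_ ht1
      ?_ ((hψ _).trans (congrArg φ hθn)) ((hψ _).trans (congrArg φ hθt))
    · rw [← map_pow, show (⟨n, hnH⟩ : ↥H) ^ 3 = 1 from Subtype.ext
        (by simpa using orderOf_dvd_iff_pow_eq_one.1 (dvd_of_eq N.ord)), map_one]
    · rw [← map_mul, show (⟨t, htH⟩ * ⟨t, htH⟩ : ↥H) = 1 from Subtype.ext D.t_sq, map_one]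
    · simp only [← map_mul, ← map_inv]
      refine congrArg φ (Subtype.ext ?_)
      show t * (n * t * n⁻¹) = n * t * n⁻¹ * t
      exact (CTData.F_t D T hftF).symm
  obtain ⟨y, hyy, hy1, hy3, hyt⟩ := A5Facts.exists_partner (φ ⟨t, htH⟩)
    (by rw [← map_mul, show (⟨t, htH⟩ * ⟨t, htH⟩ : ↥H) = 1 from Subtype.ext D.t_sq, map_one]) ht1
  obtain ⟨x0, hx0⟩ := hφs y
  set dH := x0 ^ 5 with hdH
  have hφd : φ dH = y := by
    rw [hdH, map_pow, hx0]
    calc y ^ 5 = (y * y) * (y * y) * y := by simp [pow_succ, mul_assoc]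
      _ = y := by rw [hyy, one_mul, one_mul]
  set d := (dH : G) with hd
  have hdd : d * d = 1 := by
    have h0 : ((x0 * x0 : ↥H) : G) ∈ Subgroup.zpowers s := (hφk _).1 (by rw [map_mul, hx0, hyy])
    have h5 : ((x0 * x0 : ↥H) : G) ^ 5 = 1 := by
      obtain ⟨i, hi⟩ := Subgroup.mem_zpowers_iff.1 h0
      rw [← hi, ← zpow_natCast, ← zpow_mul, mul_comm, zpow_mul, zpow_natCast, hab.1, one_zpow]
    rw [hd, hdH, ← h5]
    push_cast
    rw [← pow_add, ← pow_two, ← pow_mul]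
  have hds : Commute d s := mem_cent_iff.1 dH.2
  have hdz : d * z = z * d := by
    set w := z * d * z⁻¹ with hw
    have hq : d * w ∈ Subgroup.zpowers s := by
      refine (hφk (dH * θ dH)).1 ?_
      rw [map_mul, ← hψ, show ψ (φ dH) = φ dH from hid _, hφd, hyy]
    have hdq : Commute d (d * w) := by
      obtain ⟨i, hi⟩ := Subgroup.mem_zpowers_iff.1 hq
      rw [← hi]; exact hds.zpow_right i
    have hww : w * w = 1 := conj_sq hdd
    have h1 : d * w = 1 := hfix _ hq (by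
      calc d * w * (d * w) = d * (d * w) * w := by rw [← mul_assoc, ← hdq.eq]
        _ = (d * d) * (w * w) := by group
        _ = 1 := by rw [hdd, hww, one_mul])
    have h2 : w = d := by rw [← one_mul w, ← hdd, mul_assoc, h1, mul_one]
    exact (conj_eq_self_iff.1 (hw ▸ h2)).symm
  have hdb : d * b = b * d := by
    have hb' : b = z * s := by rw [hsdef, ← mul_assoc, hzz, one_mul]
    rw [hb']
    exact (Commute.mul_right (show Commute d z from hdz) hds).eq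
  have hdt1 : d * t ≠ 1 := fun e => hyt (by
    rw [← hφd, ← map_mul, show dH * ⟨t, htH⟩ = 1 from Subtype.ext e, map_one])
  refine ⟨d, hdd, hdz, hdb, ?_, hdt1⟩
  set q := (d * t) ^ 3 with hq
  have hqZ : q ∈ Subgroup.zpowers s := by
    have := (hφk ((dH * ⟨t, htH⟩) ^ 3)).1 (by rw [map_pow, map_mul, hφd, hy3])
    simpa using this
  have hdq : Commute d q := by
    obtain ⟨i, hi⟩ := Subgroup.mem_zpowers_iff.1 hqZ
    rw [← hi]; exact hds.zpow_right i
  refine hfix q hqZ ?_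
  have h1 : d * q * d⁻¹ = q := by rw [hdq.eq, mul_inv_cancel_right]
  have h2 : d * q * d⁻¹ = q⁻¹ := by
    rw [hq, ← conj_pow, ← inv_pow, mul_inv_rev, inv_of_sq hdd, inv_of_sq D.t_sq]
    congr 1
    calc d * (d * t) * d = (d * d) * t * d := by group
      _ = t * d := by rw [hdd, one_mul]
  nth_rw 1 [h1.symm.trans h2]
  exact inv_mul_cancel q

theorem pow_four_eq {d : G} (hdd : d * d = 1) (hdz : d * z = z * d) (hdt : (d * t) ^ 3 = 1)
    (hdt1 : d * t ≠ 1) : (u * d) ^ 4 = z := by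
  classical
  have h := D.setup
  set u' := d * u * d⁻¹ with hu'
  have hu'n : u' ∈ noncentral z Q := h.conj_noncentral hdz D.u_mem
  have hnc : u * u' ≠ u' * u := by
    intro hcomm
    set K := Subgroup.centralizer ({z} : Set G) ⊓ Subgroup.centralizer ({u} : Set G) with hK
    obtain ⟨Tm, hT, hcard⟩ := h.card_sub K fun x hx => mem_cent_iff.1 hx.1
    have hKQ : Nat.card ↥(K ⊓ Q) = 16 := by
      rw [← h.card_cent_Q D.u_mem]
      refine congrArg (fun K : Subgroup G => Nat.card K) (le_antisymm ?_ ?_)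
      · exact fun x hx => ⟨hx.2, hx.1.2⟩
      · exact fun x hx => ⟨⟨h.Q_le hx.1, hx.2⟩, hx.1⟩
    rw [hKQ, show Nat.card ↥K = 192 from h.card_stab D.u_mem] at hcard
    have hdT : img d ∈ Tm := by
      rcases h.eq_of_commute D.u_mem hu'n hcomm with e | e
      · exact (hT _).2 ⟨d, ⟨mem_cent_iff.2 hdz, mem_cent_iff.2 (conj_eq_self_iff.1 e)⟩, rfl⟩
      · obtain ⟨q, hq, hqe⟩ := h.exists_swap D.u_mem.1 D.u_mem.2.2.1 D.u_mem.2.2.2
        have hqz := h.comm_Q hq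
        have e2 : q * d * u * (q * d)⁻¹ = u := by
          calc q * d * u * (q * d)⁻¹ = q * u' * q⁻¹ := by rw [hu']; group
            _ = (q * z) * u * q⁻¹ := by rw [e]; group
            _ = z * (q * u * q⁻¹) := by rw [hqz]; group
            _ = (z * z) * u := by rw [hqe]; group
            _ = u := by rw [h.z_sq, one_mul]
        refine (hT _).2 ⟨q * d, ⟨mem_cent_iff.2 (h.comm_mul hqz hdz),
          mem_cent_iff.2 (conj_eq_self_iff.1 e2)⟩, ?_⟩
        rw [h.mul _ _ hqz hdz, (h.ker q hqz).2 hq, one_mul]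
    have htT : img t ∈ Tm := (hT _).2 ⟨t, ⟨mem_cent_iff.2 D.t_z, mem_cent_iff.2 D.t_u⟩, rfl⟩
    have hd2 : img d * img d = 1 := by rw [← h.mul _ _ hdz hdz, hdd, h.img_one]
    have ht2 : img t * img t = 1 := by rw [← h.mul _ _ D.t_z D.t_z, D.t_sq, h.img_one]
    have ht1 : img t ≠ 1 := fun e => D.t_not ((h.ker t D.t_z).1 e)
    have h3 : (img d * img t) ^ 3 = 1 := by
      rw [← h.mul _ _ hdz D.t_z, ← h.img_pow (h.comm_mul hdz D.t_z), hdt, h.img_one]
    have hp1 : img d * img t ≠ 1 := fun e => hdt1 (by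
      rw [← h.mul _ _ hdz D.t_z] at e
      have h4 := h.pow_four ((h.ker _ (h.comm_mul hdz D.t_z)).1 e)
      rwa [pow_succ, hdt, one_mul] at h4)
    exact A5Facts.card_ne_twelve hd2 ht2 h3 hp1 Tm hdT htT (by omega)
  have hu2 : (u * d) ^ 2 = u * u' := by rw [hu', inv_of_sq hdd, pow_two]; group
  rw [show 4 = 2 * 2 from rfl, pow_mul, hu2, pow_two]
  refine (h.sq_cases (Q.mul_mem D.u_mem.1 hu'n.1)).resolve_left fun e => hnc ?_
  calc u * u' = (u * u')⁻¹ := eq_inv_of_mul_eq_one_left e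
    _ = u' * u := by rw [mul_inv_rev, inv_of_sq hu'n.2.1, inv_of_sq D.u_mem.2.1]

theorem exists_gensData : ∃ b d, GensData z u t X0 b d := by
  obtain ⟨b, hb, hbb, hbc, hab, hgen⟩ := exists_b D T
  obtain ⟨d, hdd, hdz, hdb, hdt, hdt1⟩ := exists_d D T hb hbb hab
  exact ⟨b, d, hb, hbb, hbc, hab, hgen, hdd, hdz, hdb, hdt, pow_four_eq D T hdd hdz hdt hdt1⟩

end CTData

end CfsgLib.J2Uniq
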