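import Cfsg.Agent.J2Uniq.Model
import Cfsg.Agent.J2Uniq.Gens

/-!
The last relation and the recognition of the Hall-Janko group.
-/

set_option autoImplicit false

namespace CfsgLib.J2Uniq

open CfsgLib.J2Type CfsgLib.CosetEnum

variable {G : Type*} [Group G] [Finite G]

/-- the five generators as a function of a number -/
def five (a b c d e : G) : ℕ → G
  | 0 => a
  | 1 => b
  | 2 => c
  | 3 => d
  | _ => e

theorem gword_append' {H : Type*} [Group H] (v : ℕ → H) (l l' : List ℕ) :
    gword v (l ++ l') = gword v l * gword v l' := by simp [gword]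

theorem gword_reverse {H : Type*} [Group H] (v : ℕ → H) {l : List ℕ}
    (h : ∀ x ∈ l, v x * v x = 1) : gword v l.reverse = (gword v l)⁻¹ := by
  induction l with
  | nil => simp [gword]
  | cons x l ih =>
    rw [List.reverse_cons, gword_append', ih (fun y hy => h y (List.mem_cons_of_mem _ hy)),
      gword_cons v x l, mul_inv_rev, inv_of_sq (h x List.mem_cons_self)]
    simp [gword]

namespace CTData

variable {z u t r g : G} {Q E X0 F : Subgroup G} {img : G → A5}
variable (D : Data z u t r Q E img) (T : CTData z u t E X0 F g)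
include D T

/-- A nontrivial element of order three centralizing the alternating factor cycles `F`. -/
theorem pow_three_eq_one {f : G} (hf3 : f ^ 3 = 1) (hf1 : f ≠ 1)
    (hfX : ∀ y ∈ X0, f * y = y * f) : (f * t) ^ 3 = 1 := by
  classical
  obtain ⟨n, N⟩ := CTData.exists_etaData D T
  have M := CTData.threeOne D T N
  have hconjF : ∀ w ∈ F, f * w * f⁻¹ ∈ F := fun w hw => M.sq_mem _
    (Commute.mul_left (Commute.mul_left (hfX g T.g_mem) (T.comm w hw g T.g_mem))
      (Commute.inv_left (hfX g T.g_mem))).eq (conj_sq (CTData.F_sq D T hw))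
  set t1 := f * t * f⁻¹ with ht1
  set t2 := f * t1 * f⁻¹ with ht2
  have h1F : t1 ∈ F := hconjF t T.t_F
  have h2F : t2 ∈ F := hconjF t1 h1F
  have hne : t1 ≠ t := by
    intro e
    have hft : f * t = t * f := conj_eq_self_iff.1 e
    obtain ⟨f', hf', y, hy, he⟩ := T.decomp f hft
    have hyX : y = 1 := CTData.eq_one_of_central D T hy fun x hx => by
      have hye : y = f'⁻¹ * f := by rw [he]; group
      rw [hye]
      exact (Commute.mul_right (Commute.inv_right (show Commute x f' from (T.comm f' hf' x hx).symm))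
        (show Commute x f from (hfX x hx).symm)).eq
    rw [hyX, mul_one] at he
    refine hf1 ?_
    calc f = f ^ 3 * (f * f)⁻¹ := by group
      _ = 1 := by rw [hf3, he, CTData.F_sq D T hf', inv_one, one_mul]
  have hne2 : t2 ≠ t1 := fun e => hne (mul_left_cancel (mul_right_cancel e))
  have h30 : f * t2 * f⁻¹ = t := by
    calc f * t2 * f⁻¹ = f ^ 3 * t * (f ^ 3)⁻¹ := by
          rw [ht2, ht1]; simp only [pow_succ, pow_zero, one_mul]; group
      _ = t := by rw [hf3]; group
  have hne3 : t2 ≠ t := fun e => hne (by rw [e] at h30; exact h30)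
  have hprod : t1 * t2 = t := by
    by_contra hcon
    have hsub : ({1, t, t1, t2, t1 * t2} : Set G) ⊆ (F : Set G) := by
      intro x hx
      rcases hx with e | e | e | e | e
      · rw [e]; exact F.one_mem
      · rw [e]; exact T.t_F
      · rw [e]; exact h1F
      · rw [e]; exact h2F
      · rw [Set.mem_singleton_iff.1 e]; exact F.mul_mem h1F h2F
    have h11 : t1 ≠ 1 := conj_ne_one D.t_ne
    have h21 : t2 ≠ 1 := conj_ne_one h11
    have hp1 : t1 * t2 ≠ 1 := fun e => hne2 (by
      rw [← inv_of_sq (CTData.F_sq D T h1F)]; exact (inv_eq_of_mul_eq_one_right e).symm)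
    have hp2 : t1 * t2 ≠ t1 := fun e => h21 (mul_eq_left.1 e)
    have hp3 : t1 * t2 ≠ t2 := fun e => h11 (mul_eq_right.1 e)
    have h := Set.ncard_le_ncard hsub (Set.toFinite _)
    rw [Set.ncard_insert_of_notMem (by simp [D.t_ne.symm, h11.symm, h21.symm, hp1.symm]),
      Set.ncard_insert_of_notMem (by simp [hne.symm, hne3.symm, Ne.symm hcon]),
      Set.ncard_insert_of_notMem (by simp [hne2.symm, hp2.symm]),
      Set.ncard_pair (Ne.symm hp3), ← Nat.card_coe_set_eq, SetLike.coe_sort_coe, T.card_F] at h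
    omega
  calc (f * t) ^ 3 = (f * t * f⁻¹) * (f * (f * t * f⁻¹) * f⁻¹) * (f ^ 3 * t) := by
        simp only [pow_succ, pow_zero, one_mul]; group
    _ = t * t := by rw [← ht1, ← ht2, hf3, one_mul, hprod]
    _ = 1 := D.t_sq

/-- No elementary abelian group of order nine consists of conjugates of `g`. -/
theorem false_of_nine {x y : G} (hx : x ∈ X0) (hx3 : x ^ 3 = 1) (hx1 : x ≠ 1)
    (hxy : x * y = y * x) (h1 : IsConj x y) (h2 : IsConj x (x * y)) (h3 : IsConj x (x * x * y)) :
    False := by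
  classical
  obtain ⟨n, N⟩ := CTData.exists_etaData D T
  have M := CTData.threeOne D T N
  obtain ⟨e⟩ := T.iso
  haveI : Fact (Nat.Prime 3) := ⟨Nat.prime_three⟩
  have hx1' : e ⟨x, hx⟩ ≠ 1 := fun h =>
    hx1 (congrArg Subtype.val (e.injective (h.trans (map_one e).symm)))
  have hg1' : e ⟨g, T.g_mem⟩ ≠ 1 := fun h => by
    have h' := congrArg orderOf (congrArg Subtype.val (e.injective (h.trans (map_one e).symm)))
    simp only [OneMemClass.coe_one, orderOf_one, T.g_ord] at h'
    norm_num at h'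
  obtain ⟨k', hk'⟩ := A5Facts.three_conj (e ⟨g, T.g_mem⟩)
    (by rw [← map_pow, show (⟨g, T.g_mem⟩ : ↥X0) ^ 3 = 1 from Subtype.ext
      (by simpa using orderOf_dvd_iff_pow_eq_one.1 (dvd_of_eq T.g_ord)), map_one]) hg1'
    (e ⟨x, hx⟩) (by rw [← map_pow, show (⟨x, hx⟩ : ↥X0) ^ 3 = 1 from Subtype.ext (by simpa using hx3),
      map_one]) hx1'
  have hk : ((e.symm k' : ↥X0) : G) * g * ((e.symm k' : ↥X0) : G)⁻¹ = x := by
    have := congrArg (fun a => ((e.symm a : ↥X0) : G)) hk'
    simpa using this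
  set k := ((e.symm k' : ↥X0) : G)
  set y' := k⁻¹ * y * k with hy'
  have hy'g : y' * g = g * y' := by
    calc y' * g = k⁻¹ * (y * (k * g * k⁻¹)) * k := by rw [hy']; group
      _ = k⁻¹ * ((k * g * k⁻¹) * y) * k := by rw [hk, hxy]
      _ = g * y' := by rw [hy']; group
  have hy3 : orderOf y' = 3 := by
    obtain ⟨c, hc⟩ := isConj_iff.1 h1
    refine orderOf_eq_prime ?_ ?_
    · rw [show y' = k⁻¹ * y * k⁻¹⁻¹ by rw [hy']; group, conj_pow, ← hc, conj_pow, hx3]
      group
    · intro h
      refine hx1 ?_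
      have hy1 : y = 1 := by
        calc y = k * y' * k⁻¹ := by rw [hy']; group
          _ = 1 := by rw [h]; group
      rw [hy1] at hc
      calc x = c⁻¹ * (c * x * c⁻¹) * c := by group
        _ = 1 := by rw [hc]; group
  have hcomm : ∀ (a : ↥(Subgroup.zpowers g)) (b : ↥(Subgroup.zpowers n)),
      Commute ((Subgroup.zpowers g).subtype a) ((Subgroup.zpowers n).subtype b) := fun a b =>
    commute_of_mem_zpowers (commute_of_mem_zpowers (N.comm_X0 g T.g_mem) a.2).symm b.2
  set P9 := (MonoidHom.noncommCoprod _ _ hcomm).range with hP9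
  have hdisj : ∀ w, w ∈ Subgroup.zpowers g → w ∈ Subgroup.zpowers n → w = 1 := by
    intro w hw1 hw2
    by_contra hw
    exact CTData.g_notMem D T N (by
      rw [← zpowers_eq_of_prime Nat.prime_three N.ord hw2 hw,
        zpowers_eq_of_prime Nat.prime_three T.g_ord hw1 hw]
      exact Subgroup.mem_zpowers g)
  have h9 : Nat.card P9 = 3 ^ 2 := by
    rw [hP9, Nat.card_congr (MonoidHom.ofInjective ((MonoidHom.noncommCoprod_injective _ _ hcomm).2
      ⟨Subtype.val_injective, Subtype.val_injective, by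
        rw [Subgroup.range_subtype, Subgroup.range_subtype, Subgroup.disjoint_def]
        exact fun {w} h1 h2 => hdisj w h1 h2⟩)).toEquiv.symm, Nat.card_prod, Nat.card_zpowers,
      Nat.card_zpowers, T.g_ord, N.ord]
    norm_num
  have hP9H : P9 ≤ Subgroup.centralizer ({g} : Set G) := by
    rintro _ ⟨⟨a, b⟩, rfl⟩
    rw [MonoidHom.noncommCoprod_apply]
    refine mul_mem (mem_cent_iff.2 ?_) (mem_cent_iff.2 ?_)
    · exact (commute_of_mem_zpowers (s := g) rfl a.2).symm
    · exact (commute_of_mem_zpowers (N.comm_X0 g T.g_mem).symm b.2).symm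
  obtain ⟨c, hc, ⟨⟨⟨p, hp⟩, ⟨q, hq⟩⟩, hpq⟩⟩ := conj_into (p := 3) (n := 2) hP9H h9
    (by rw [M.card]; norm_num) (mem_cent_iff.2 hy'g : y' ∈ Subgroup.centralizer ({g} : Set G)) (k := 1)
    (by rw [hy3]; rfl)
  replace hpq : p * q = c * y' * c⁻¹ := by
    simpa [MonoidHom.noncommCoprod_apply] using hpq
  have hcg : c * g = g * c := mem_cent_iff.1 hc
  have hg3 : g ^ 3 = 1 := by rw [← T.g_ord, pow_orderOf_eq_one]
  have htr : ∀ a, IsConj x a → IsConj g (c * (k⁻¹ * a * k) * c⁻¹) := fun a ha => by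
    refine ((isConj_iff.2 ⟨k, hk⟩ : IsConj g x).trans ha).trans (isConj_iff.2 ⟨c * k⁻¹, ?_⟩)
    group
  have hq1 : q ≠ 1 := by
    intro e
    rw [e, mul_one] at hpq
    have hy'p : y' = p := by
      calc y' = c⁻¹ * (c * y' * c⁻¹) * c := by group
        _ = c⁻¹ * (p * c) := by rw [← hpq]; group
        _ = p := by rw [← commute_of_mem_zpowers hcg hp]; group
    obtain ⟨i, hi, hpi⟩ := mem_zpowers_cases (by norm_num) T.g_ord hp
    have hyx : y = x ^ i := by
      rw [show y = k * y' * k⁻¹ by rw [hy']; group, hy'p, hpi, ← conj_pow, hk]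
    interval_cases i
    · obtain ⟨d, hd⟩ := isConj_iff.1 h1
      rw [hyx, pow_zero] at hd
      exact hx1 (by calc x = d⁻¹ * (d * x * d⁻¹) * d := by group
                      _ = 1 := by rw [hd]; group)
    · obtain ⟨d, hd⟩ := isConj_iff.1 h3
      rw [hyx, pow_one, show x * x * x = x ^ 3 by simp [pow_succ, mul_assoc], hx3] at hd
      exact hx1 (by calc x = d⁻¹ * (d * x * d⁻¹) * d := by group
                      _ = 1 := by rw [hd]; group)
    · obtain ⟨d, hd⟩ := isConj_iff.1 h2
      rw [hyx, show x * x ^ 2 = x ^ 3 from (pow_succ' x 2).symm, hx3] at hd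
      exact hx1 (by calc x = d⁻¹ * (d * x * d⁻¹) * d := by group
                      _ = 1 := by rw [hd]; group)
  have hq' : ∃ a, a * g * a⁻¹ = q := by
    refine isConj_iff.1 ?_
    obtain ⟨i, hi, hpi⟩ := mem_zpowers_cases (by norm_num) T.g_ord hp
    rw [hpi] at hpq
    interval_cases i
    · rw [pow_zero, one_mul] at hpq
      rw [hpq]; exact htr y h1
    · have e : q = c * (k⁻¹ * (x * x * y) * k) * c⁻¹ := by
        have e1 : k⁻¹ * (x * x * y) * k = g * g * y' := by rw [← hk, hy']; group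
        rw [e1]
        calc q = g⁻¹ * (g ^ 1 * q) := by group
          _ = g⁻¹ * (c * y' * c⁻¹) := by rw [hpq]
          _ = g ^ 3 * g⁻¹ * (c * y' * c⁻¹) := by rw [hg3, one_mul]
          _ = g * g * c * y' * c⁻¹ := by simp [pow_succ, mul_assoc]
          _ = c * (g * g) * y' * c⁻¹ := by
            rw [(Commute.mul_right (show Commute c g from hcg) hcg).eq]
          _ = c * (g * g * y') * c⁻¹ := by group
      rw [e]; exact htr _ h3
    · have e : q = c * (k⁻¹ * (x * y) * k) * c⁻¹ := by
        have e1 : k⁻¹ * (x * y) * k = g * y' := by rw [← hk, hy']; group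
        rw [e1]
        calc q = (g ^ 2)⁻¹ * (g ^ 2 * q) := by group
          _ = (g ^ 2)⁻¹ * (c * y' * c⁻¹) := by rw [hpq]
          _ = g ^ 3 * (g ^ 2)⁻¹ * (c * y' * c⁻¹) := by rw [hg3, one_mul]
          _ = g * c * y' * c⁻¹ := by group
          _ = c * g * y' * c⁻¹ := by rw [hcg]
          _ = c * (g * y') * c⁻¹ := by group
      rw [e]; exact htr _ h2
  obtain ⟨a, ha⟩ := hq'
  exact M.not_conj a (ha ▸ hq)

theorem isoJ2 : Cfsg.Spor.IsoJ2 G := by
  obtain ⟨b, d, V⟩ := exists_gensData D T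
  have hzz := D.setup.z_sq
  have huu := D.u_mem.2.1
  have hb5 := V.ab.1
  have had : z * d = d * z := V.d_z.symm
  have hae : z * t = t * z := D.t_z.symm
  have hce : u * t = t * u := D.t_u.symm
  have hbe : b * t = t * b := T.X0_t b V.b_mem
  have hac : z * u = u * z := (D.setup.comm_Q D.u_mem.1).symm
  have sq2 : ∀ {p q : G}, p * p = 1 → q * q = 1 → p * q = q * p → p * (q * (p * q)) = 1 :=
    fun {p q} hp hq h => by
      calc p * (q * (p * q)) = p * (q * p) * q := by group
        _ = (p * p) * (q * q) := by rw [← h]; group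
        _ = 1 := by rw [hp, hq, one_mul]
  have hud8 : (u * d) ^ 8 = 1 := by
    rw [show 8 = 4 * 2 from rfl, pow_mul, V.ud, sq, hzz]
  have hdu : (d * u) ^ 4 = z := by
    rw [show d * u = d * (u * d) * d⁻¹ by group, conj_pow, V.ud, V.d_z]
    group
  set v := five z b u d t with hv
  have h4 : ∀ w ∈ rels4, gword v w = 1 := by
    intro w hw
    simp only [rels4, List.mem_cons, List.not_mem_nil, or_false] at hw
    rcases hw with rfl | rfl | rfl | rfl | rfl | rfl | rfl | rfl | rfl | rfl | rfl <;>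
      simp only [gword, hv, five, List.map_cons, List.map_nil, List.prod_cons, List.prod_nil, mul_one]
    · exact hzz
    · exact V.b_sq
    · exact huu
    · exact V.d_sq
    · simpa [pow_succ, mul_assoc] using hb5
    · exact sq2 hzz huu hac
    · exact sq2 hzz V.d_sq had
    · simpa [pow_succ, mul_assoc] using V.bc.1
    · exact sq2 V.b_sq V.d_sq V.d_b.symm
    · simpa [pow_succ, mul_assoc] using hud8
    · calc z * (d * (u * (d * (u * (d * (u * (d * u))))))) = z * (d * u) ^ 4 := by
            simp [pow_succ, mul_assoc]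
        _ = 1 := by rw [hdu, hzz]
  have hsq : ∀ x < 4, v x * v x = 1 := by
    intro x hx
    interval_cases x <;> simp [hv, five, hzz, V.b_sq, huu, V.d_sq]
  set f := gword v fWord with hf
  have hid := fun {w} (hw : w ∈ idWords) => gword_idWord v h4 hw
  have hrev : ∀ l : List ℕ, (∀ x ∈ l, x < 4) → gword v l.reverse = (gword v l)⁻¹ :=
    fun l hl => gword_reverse v fun x hx => hsq x (hl x hx)
  have hfrev : gword v fWord.reverse = f⁻¹ := hrev _ (by decide)
  have hf3 : f ^ 3 = 1 := by
    have := hid (List.mem_cons_self : fWord ++ fWord ++ fWord ∈ idWords)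
    rw [gword_append', gword_append'] at this
    rw [← this, hf, pow_three, mul_assoc]
  have hfj : ∀ j < 3, f * v j = v j * f := by
    intro j hj
    have hw : fWord ++ [j] ++ fWord.reverse ++ [j] ∈ idWords := by
      interval_cases j <;> simp [idWords]
    have := hid hw
    rw [gword_append', gword_append', gword_append', hfrev, ← hf,
      show gword v [j] = v j by simp [gword]] at this
    have h2 : f * v j * f⁻¹ = v j := by
      rw [eq_inv_of_mul_eq_one_left this, inv_of_sq (hsq j (by omega))]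
    exact conj_eq_self_iff.1 h2
  have hfX : ∀ y ∈ X0, f * y = y * f := fun y hy =>
    (mem_cent_iff.1 (V.gen (Subgroup.centralizer ({f} : Set G)) (mem_cent_iff.2 (hfj 0 (by norm_num)).symm)
      (mem_cent_iff.2 (hfj 2 (by norm_num)).symm) (mem_cent_iff.2 (hfj 1 (by norm_num)).symm) hy)).symm
  have hf1 : f ≠ 1 := by
    intro e
    set x := gword v [1, 2] with hx
    set y := gword v [0, 1, 2, 3, 1, 2, 3, 2, 1, 0] with hy
    have ex : x = b * u := by simp [hx, gword, hv, five]
    have hxr : gword v [2, 1] = x⁻¹ := hrev [1, 2] (by decide)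
    have hyr : gword v [0, 1, 2, 3, 2, 1, 3, 2, 1, 0] = y⁻¹ := hrev [0, 1, 2, 3, 1, 2, 3, 2, 1, 0] (by decide)
    have hxy : x * y = y * x := by
      have := hid (show [1, 2] ++ [0, 1, 2, 3, 1, 2, 3, 2, 1, 0] ++ [2, 1] ++
        [0, 1, 2, 3, 2, 1, 3, 2, 1, 0] ++ (fWord ++ fWord) ∈ idWords by simp [idWords])
      simp only [gword_append', ← hx, ← hy, hxr, hyr, ← hf, e, mul_one] at this
      exact mul_inv_eq_iff_eq_mul.1 (mul_inv_eq_one.1 this)
    have hc1 : IsConj x y := by
      refine isConj_iff.2 ⟨gword v [0, 1, 2, 3], ?_⟩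
      rw [hx, hy, ← hrev [0, 1, 2, 3] (by decide), ← gword_append', ← gword_append']
      rfl
    have hc2 : IsConj x (x * y) := by
      refine isConj_iff.2 ⟨gword v [3, 2, 1, 0], ?_⟩
      have := hid (show [3, 2, 1, 0] ++ [1, 2] ++ [0, 1, 2, 3] ++
        ([0, 1, 2, 3, 2, 1, 3, 2, 1, 0] ++ [2, 1]) ∈ idWords by simp [idWords])
      simp only [gword_append', ← hx, hxr, hyr] at this
      rw [← mul_inv_eq_one, mul_inv_rev, ← this,
        ← hrev [3, 2, 1, 0] (by decide)]
      rfl
    have hc3 : IsConj x (x * x * y) := by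
      refine isConj_iff.2 ⟨gword v [3, 2, 1, 0, 3, 2, 1, 0], ?_⟩
      have := hid (show [3, 2, 1, 0, 3, 2, 1, 0] ++ [1, 2] ++ [0, 1, 2, 3, 0, 1, 2, 3] ++
        ([0, 1, 2, 3, 2, 1, 3, 2, 1, 0] ++ [2, 1] ++ [2, 1]) ++ fWord ∈ idWords by simp [idWords])
      simp only [gword_append', ← hx, hxr, hyr, ← hf, e, mul_one] at this
      rw [← mul_inv_eq_one, mul_inv_rev, mul_inv_rev, ← mul_assoc y⁻¹, ← this,
        ← hrev [3, 2, 1, 0, 3, 2, 1, 0] (by decide)]
      rfl
    exact false_of_nine D T (ex ▸ mul_mem V.b_mem T.u_X0) (ex ▸ V.bc.1) (ex ▸ V.bc.2) hxy hc1 hc2 hc3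
  have hft := pow_three_eq_one D T hf3 hf1 hfX
  refine isoJ2_of_rels v (CTData.card_G D T) ?_ D.setup.z_ne
  intro w hw
  simp only [SporJ2.Hundred.rels, List.mem_cons, List.not_mem_nil, or_false] at hw
  have four : ∀ {l}, l ∈ rels4 → gword v l = 1 := fun hl => h4 _ hl
  have hte : v 4 = t := rfl
  rcases hw with rfl | rfl | rfl | rfl | rfl | rfl | rfl | rfl | rfl | rfl | rfl | rfl | rfl | rfl |
    rfl | rfl | rfl
  all_goals first
    | (refine four ?_; decide)
    | skip
  · simpa [gword, hv, five] using D.t_sq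
  · simpa [gword, hv, five] using sq2 hzz D.t_sq hae
  · simpa [gword, hv, five] using sq2 V.b_sq D.t_sq hbe
  · simpa [gword, hv, five] using sq2 huu D.t_sq hce
  · simpa [gword, hv, five, pow_succ, mul_assoc] using V.dt
  · show gword v ((fWord ++ [4]) ++ (fWord ++ [4]) ++ (fWord ++ [4])) = 1
    simp only [gword_append', ← hf, show gword v [4] = t by simp [gword, hv, five]]
    rw [← hft]
    simp [pow_succ]

end CTData

end CfsgLib.J2Uniq
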